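import Mathlib

/-!
# Arithmetic of the two order formulas
-/

set_option autoImplicit false

namespace Cfsg.Agent.Lib.Cent4

/-- `s` is even. -/
theorem even_s {c m s : ℤ} (hc : Even c) (hm : Odd m)
    (hII : s ^ 2 * m = (1 - 4 * s) * (1 - 2 * s) * c ^ 2) : Even s := by
  by_contra hs
  rw [Int.not_even_iff_odd] at hs
  have h1 : Odd (s ^ 2 * m) := (hs.pow).mul hm
  have h2 : Even ((1 - 4 * s) * (1 - 2 * s) * c ^ 2) :=
    Even.mul_left (hc.pow_of_ne_zero (by norm_num)) _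
  rw [hII] at h1
  exact (Int.not_even_iff_odd.mpr h1) h2

/-- `s` divides `c`. -/
theorem dvd_of_eq {c m s : ℤ} (hII : s ^ 2 * m = (1 - 4 * s) * (1 - 2 * s) * c ^ 2) : s ∣ c := by
  have hc : IsCoprime (s ^ 2) ((1 - 4 * s) * (1 - 2 * s)) := by
    apply IsCoprime.pow_left
    apply IsCoprime.mul_right
    · exact ⟨4, 1, by ring⟩
    · exact ⟨2, 1, by ring⟩
  have h1 : s ^ 2 ∣ c ^ 2 := hc.dvd_of_dvd_mul_left ⟨m, by rw [← hII]⟩
  exact (Int.pow_dvd_pow_iff (by norm_num)).mp h1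

/-- The bounds for `m`, for even `s ≠ 0`. -/
theorem bound_m {c m s : ℤ} (hc : Even c) (hm : Odd m) (hs0 : s ≠ 0)
    (hII : s ^ 2 * m = (1 - 4 * s) * (1 - 2 * s) * c ^ 2) :
    21 * c ^ 2 ≤ 4 * m ∧ 4 * m ≤ 45 * c ^ 2 := by
  obtain ⟨r, hr⟩ := even_s hc hm hII
  have hr0 : r ≠ 0 := by
    rintro rfl
    apply hs0
    rw [hr]
    ring
  have hs2 : 2 ≤ |s| := by
    rw [hr]
    have : 1 ≤ |r| := Int.one_le_abs hr0
    have h2 : |r + r| = 2 * |r| := by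
      rw [← two_mul, abs_mul]
      norm_num
    rw [h2]
    linarith
  have hspos : 0 < s ^ 2 := by positivity
  have hc2 : 0 ≤ c ^ 2 := by positivity
  have h1 : 21 * s ^ 2 ≤ 4 * ((1 - 4 * s) * (1 - 2 * s)) := by
    rcases le_or_gt 0 s with h | h
    · rw [abs_of_nonneg h] at hs2
      nlinarith
    · rw [abs_of_neg h] at hs2
      nlinarith
  have h2 : 4 * ((1 - 4 * s) * (1 - 2 * s)) ≤ 45 * s ^ 2 := by
    rcases le_or_gt 0 s with h | h
    · rw [abs_of_nonneg h] at hs2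
      nlinarith
    · rw [abs_of_neg h] at hs2
      nlinarith
  constructor
  · have h3 : s ^ 2 * (21 * c ^ 2) ≤ s ^ 2 * (4 * m) := by
      have : s ^ 2 * (4 * m) = 4 * ((1 - 4 * s) * (1 - 2 * s)) * c ^ 2 := by
        linear_combination 4 * hII
      rw [this]
      nlinarith
    exact le_of_mul_le_mul_left h3 hspos
  · have h3 : s ^ 2 * (4 * m) ≤ s ^ 2 * (45 * c ^ 2) := by
      have : s ^ 2 * (4 * m) = 4 * ((1 - 4 * s) * (1 - 2 * s)) * c ^ 2 := by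
        linear_combination 4 * hII
      rw [this]
      nlinarith
    exact le_of_mul_le_mul_left h3 hspos

/-- `|4 f - 1| ≤ 5 |f|`. -/
theorem abs_le_five {f : ℤ} (hf : f ≠ 0) : |4 * f - 1| ≤ 5 * |f| := by
  have h1 : 1 ≤ |f| := Int.one_le_abs hf
  calc |4 * f - 1| ≤ |4 * f| + |(1 : ℤ)| := abs_sub _ _
    _ = 4 * |f| + 1 := by rw [abs_mul]; norm_num
    _ ≤ 5 * |f| := by linarith

/-- The case `b = 1`. -/
theorem arith_b_one {a m s f₂ f₃ : ℤ} (ha : Odd a) (ha0 : 0 < a) (hm : Odd m) (hs0 : s ≠ 0)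
    (hsum : s = f₂ + f₃)
    (hII : s ^ 2 * m = (1 - 4 * s) * (1 - 2 * s) * (a + 1) ^ 2)
    (hI : a * (1 - 4 * s) * (4 * f₂ - 1) * (4 * f₃ - 1) = m * (1 - 2 * s) * f₂ * f₃) :
    (a = 1 ∧ (m = 21 ∨ m = 45)) ∨ (a = 3 ∧ m = 105) ∨ (a = 5 ∧ m = 189) := by
  have hev : Even (a + 1) := ha.add_one
  obtain ⟨r, hr⟩ := even_s hev hm hII
  have hdvd : s ∣ a + 1 := dvd_of_eq hII
  have hr0 : r ≠ 0 := by
    rintro rfl
    apply hs0
    rw [hr]
    ring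
  have hs2 : 2 ≤ |s| := by
    rw [hr]
    have : 1 ≤ |r| := Int.one_le_abs hr0
    have h2 : |r + r| = 2 * |r| := by
      rw [← two_mul, abs_mul]
      norm_num
    rw [h2]
    linarith
  have h14 : (1 - 4 * s) ≠ 0 := by omega
  -- the equation without `m`
  have hstar : s ^ 2 * a * ((4 * f₂ - 1) * (4 * f₃ - 1)) =
      (1 - 2 * s) ^ 2 * (a + 1) ^ 2 * (f₂ * f₃) := by
    have : (1 - 4 * s) * (s ^ 2 * a * ((4 * f₂ - 1) * (4 * f₃ - 1))) =
        (1 - 4 * s) * ((1 - 2 * s) ^ 2 * (a + 1) ^ 2 * (f₂ * f₃)) := by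
      linear_combination s ^ 2 * hI + (1 - 2 * s) * f₂ * f₃ * hII
    exact mul_left_cancel₀ h14 this
  have hf₂ : (4 * f₂ - 1) ≠ 0 := by omega
  have hf₃ : (4 * f₃ - 1) ≠ 0 := by omega
  have hP : f₂ * f₃ ≠ 0 := by
    intro e
    rw [e, mul_zero] at hstar
    have hsa : s ^ 2 * a ≠ 0 := mul_ne_zero (pow_ne_zero 2 hs0) ha0.ne'
    exact (mul_ne_zero hsa (mul_ne_zero hf₂ hf₃)) hstar
  have hf₂0 : f₂ ≠ 0 := left_ne_zero_of_mul hP
  have hf₃0 : f₃ ≠ 0 := right_ne_zero_of_mul hP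
  -- the bound
  have hb1 : (1 - 2 * s) ^ 2 * (a + 1) ^ 2 ≤ 25 * s ^ 2 * a := by
    have h1 : |(1 - 2 * s) ^ 2 * (a + 1) ^ 2 * (f₂ * f₃)| =
        (1 - 2 * s) ^ 2 * (a + 1) ^ 2 * |f₂ * f₃| := by
      rw [abs_mul, abs_of_nonneg (by positivity : 0 ≤ (1 - 2 * s) ^ 2 * (a + 1) ^ 2)]
    have h2 : |s ^ 2 * a * ((4 * f₂ - 1) * (4 * f₃ - 1))| =
        s ^ 2 * a * (|4 * f₂ - 1| * |4 * f₃ - 1|) := by
      rw [abs_mul, abs_mul (4 * f₂ - 1), abs_of_nonneg (by positivity : 0 ≤ s ^ 2 * a)]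
    have h3 : |4 * f₂ - 1| * |4 * f₃ - 1| ≤ 25 * |f₂ * f₃| := by
      have h4 := abs_le_five hf₂0
      have h5 := abs_le_five hf₃0
      rw [abs_mul]
      calc |4 * f₂ - 1| * |4 * f₃ - 1| ≤ (5 * |f₂|) * (5 * |f₃|) :=
            mul_le_mul h4 h5 (abs_nonneg _) (by positivity)
        _ = _ := by ring
    have h6 : (1 - 2 * s) ^ 2 * (a + 1) ^ 2 * |f₂ * f₃| ≤ 25 * s ^ 2 * a * |f₂ * f₃| := by
      rw [← h1, ← hstar, h2]
      have : 0 ≤ s ^ 2 * a := by positivity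
      nlinarith
    have hPpos : 0 < |f₂ * f₃| := abs_pos.mpr hP
    exact le_of_mul_le_mul_right h6 hPpos
  have hb2 : 9 * s ^ 2 ≤ 4 * (1 - 2 * s) ^ 2 := by
    rcases le_or_gt 0 s with h | h
    · rw [abs_of_nonneg h] at hs2
      nlinarith
    · rw [abs_of_neg h] at hs2
      nlinarith
  have hb3 : 9 * (a + 1) ^ 2 ≤ 100 * a := by
    have hspos : 0 < s ^ 2 := by positivity
    have h1 : s ^ 2 * (9 * (a + 1) ^ 2) ≤ s ^ 2 * (100 * a) := by
      have h2 : 0 ≤ (a + 1) ^ 2 := by positivity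
      nlinarith
    exact le_of_mul_le_mul_left h1 hspos
  have ha9 : a ≤ 9 := by nlinarith
  obtain ⟨k, rfl⟩ := ha
  have hk : 0 ≤ k := by omega
  have hk4 : k ≤ 4 := by omega
  -- the linear equation for `p = f₂ f₃`
  have hL : s ^ 2 * (2 * k + 1) * (16 * (f₂ * f₃) - 4 * s + 1) =
      (1 - 2 * s) ^ 2 * (2 * k + 1 + 1) ^ 2 * (f₂ * f₃) := by
    rw [← hstar, hsum]
    ring
  generalize f₂ * f₃ = p at hL
  have hsle : |s| ≤ 2 * k + 2 := by
    have : |s| ≤ |2 * k + 1 + 1| := Int.le_of_dvd (abs_pos.mpr (by omega)) ((abs_dvd_abs _ _).mpr hdvd)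
    rw [abs_of_nonneg (by omega : 0 ≤ 2 * k + 1 + 1)] at this
    linarith
  have hs1 := (abs_le.mp hsle).1
  have hs3 := (abs_le.mp hsle).2
  interval_cases k
  · -- a = 1
    have : s = 2 ∨ s = -2 := by omega
    rcases this with rfl | rfl
    · left
      refine ⟨by norm_num, Or.inl (by omega)⟩
    · left
      refine ⟨by norm_num, Or.inr (by omega)⟩
  · -- a = 3
    have : s = 2 ∨ s = -2 ∨ s = 4 ∨ s = -4 := by omega
    rcases this with rfl | rfl | rfl | rfl <;> obtain ⟨q, hq⟩ := hm <;> omega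
  · -- a = 5
    have : s = 2 ∨ s = -2 ∨ s = 4 ∨ s = -4 ∨ s = 6 ∨ s = -6 := by
      have h6 : s ∣ 6 := by simpa using hdvd
      omega
    rcases this with rfl | rfl | rfl | rfl | rfl | rfl <;> obtain ⟨q, hq⟩ := hm <;> omega
  · -- a = 7
    have : s = 2 ∨ s = -2 ∨ s = 4 ∨ s = -4 ∨ s = 6 ∨ s = -6 ∨ s = 8 ∨ s = -8 := by omega
    rcases this with rfl | rfl | rfl | rfl | rfl | rfl | rfl | rfl <;> obtain ⟨q, hq⟩ := hm <;> omega
  · -- a = 9
    have : s = 2 ∨ s = -2 ∨ s = 4 ∨ s = -4 ∨ s = 6 ∨ s = -6 ∨ s = 8 ∨ s = -8 ∨ s = 10 ∨ s = -10 := by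
      omega
    rcases this with rfl | rfl | rfl | rfl | rfl | rfl | rfl | rfl | rfl | rfl <;>
      obtain ⟨q, hq⟩ := hm <;> omega

/-- The inequality of the Lemma on subgroups of index two. -/
theorem le_of_formula {D y b : ℤ} (hD : Odd D) (hy : 0 < y) (hb : 0 < b)
    (h : (D - 1) * y = 2 * b ^ 2 * (D + 1)) : b ^ 2 ≤ y := by
  have hb2 : 0 < b ^ 2 := by positivity
  obtain ⟨k, rfl⟩ := hD
  rcases lt_trichotomy k 0 with hk | hk | hk
  · -- D ≤ -1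
    have hk1 : k = -1 ∨ k ≤ -2 := by omega
    rcases hk1 with rfl | hk2
    · -- D = -1
      norm_num at h
      omega
    · by_contra hlt
      push Not at hlt
      nlinarith
  · subst hk
    norm_num at h
    nlinarith
  · nlinarith

end Cfsg.Agent.Lib.Cent4
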